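import Cfsg.Agent.TZ.JP
import Cfsg.Agent.S1645

/-! Standard double covers of alternating groups of degree at least eight with cyclic centraliser. -/

set_option autoImplicit false

namespace CF.TZ.Big

open Cfsg Equiv Equiv.Perm Subgroup CF.Loc CF.StdZ CF.StdZ.Alt

variable {G : Type*} [Group G] {m : ℕ} {F E : Dt G (Perm (Fin (m + 8)))}

local notation "A" => alternatingGroup (Fin (m + 8))

/-- a unique involution in the centraliser -/
def Uq (F : Dt G (Perm (Fin (m + 8)))) : Prop := ∀ k ∈ F.K, k * k = 1 → k = 1 ∨ k = F.z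

theorem Uq.cj (h : Uq F) (g : G) : Uq (F.cj g) := fun k hk e =>
  (h _ (mem_cj.1 hk) (by simp [mul_assoc, ← mul_assoc k, e])).imp one_of_cj fun e => by
    show k = g * F.z * g⁻¹
    rw [← e]; group

/-- a pair of frames with cyclic centralisers -/
structure CP (F E : Dt G (Perm (Fin (m + 8)))) : Prop extends AP F E where
  u : Uq F

namespace CP

variable (h : CP F E)
include h

theorem symm : CP E F := ⟨h.toAP.symm, h.cj.elim fun g e => e ▸ h.u.cj g⟩

theorem inner' : E.π F.z ∈ A := by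
  obtain ⟨w, hw, c, a, b, c', d, e, n, -⟩ := exists_w h.ττ (by simp)
  obtain ⟨l, hl, rfl⟩ := h.fr.im w hw
  have c := (h.fr.comm_sq hl h.cm c).symm
  rw [← h.q _ (mul_mem hl hl) _ _ _ _ n (by rw [h.fr.mul (h.fr.cL hl) (h.fr.cL hl), e]), h.fe.mul c c]
  exact sq_mem _

theorem inner : F.π E.z ∈ A := h.symm.inner'

theorem types : ∃ l ∈ F.L, ∃ k ∈ F.K, ∃ j, E.z = l * k ∧ (F.π E.z).support.card = 4 * j ∧ l * l = F.z ^ j ∧ j ≠ 0 := by
  obtain ⟨l, hl, k, hk, e⟩ := h.fr.dec h.cm h.inner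
  have p : F.π E.z = pL h.fr ⟨l, hl⟩ := by rw [e, h.fr.πLK hl hk]; rfl
  obtain ⟨j, a, b⟩ := (dc h.fr h.q).sq_eq ⟨l, hl⟩ (p ▸ h.ττ)
  rw [← p] at a
  exact ⟨l, hl, k, hk, j, e, a, congrArg Subtype.val b, by
    rintro rfl; exact h.τ1 (card_support_eq_zero.1 a)⟩

variable [Finite G]

theorem uniq {u : Perm (Fin (m + 8))} (a : u ∈ h.Kp) (uu : u * u = 1) : u = 1 ∨ u = F.π E.z := by
  obtain ⟨s, hs, -, ss, rfl⟩ := h.lift_inv a uu
  exact (h.symm.u s hs ss).imp (fun e => by rw [e, h.fr.one]) fun e => by rw [e]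

theorem noII {y : G} (hy : y ∈ E.K) (c : Commute F.z y) (yy : y * y = E.z) :
    F.π y ∉ A ∧ (F.π E.z).support.card = 4 := by
  have ηη : F.π y * F.π y = F.π E.z := by rw [← h.fr.mul c c, yy]
  obtain ⟨-, -, -, -, j, -, s, -, j0⟩ := h.types
  by_cases j1 : j = 1
  · subst j1
    exact ⟨root_odd ηη h.ττ s fun a => fix_of_uniq (N := h.Kp) (fun x hx u hu => h.Kp_conj hu hx)
      (fun u hu uu => h.uniq hu uu) (h4 (by rw [s]; simp)) (h.mem_Kp hy c) ηη, s⟩
  exfalso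
  obtain ⟨δ, d3, dc, n⟩ := exists_d ηη h.ττ (by omega)
  obtain ⟨d, hd, rfl, e2⟩ := h.fr.odd_lift (mem_of_odd (by decide) d3) (by decide) d3
  have cd := (h.fr.comm_odd hd h.cm dc (by decide) e2).symm
  obtain ⟨l, hl, k, hk, f, -, k3, a⟩ := h.fe.split cd (mem_of_odd (m := 3) (by decide)
    (by rw [← h.fe.pow cd, e2, h.fe.one])) (by decide) e2
  obtain ⟨c1, c2⟩ := a _ h.cm.symm (h.fr.cL hd)
  have mk := h.mem_Kp hk c2
  have cf : Cf (F.π E.z) (F.π k) := cf_of h.ττ (hf h.ττ (by omega)) (h.Kp_comm mk) (m := 3) (by decide)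
    (by rw [← h.fr.pow c2, k3, h.fr.one]) fun x hx xx => h.uniq (h.Kp_cm mk hx) xx
  refine n fun a b ha hb => ?_
  have : y * d * y⁻¹ * d⁻¹ = y * k * y⁻¹ * k⁻¹ := by
    rw [f, (h.fe.cLK hl hk).eq, ← conj_mul, conj_of_comm (h.fe.cLK hl hy)]; group
  rw [← h.fr.conj c (h.fr.cL hd), ← h.fr.inv (h.fr.cL hd),
    ← h.fr.mul ((c.mul_right (h.fr.cL hd)).mul_right c.inv_right) (h.fr.cL hd).inv_right, this,
    h.fr.mul ((c.mul_right c2).mul_right c.inv_right) c2.inv_right, h.fr.conj c c2, h.fr.inv c2]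
  exact (cf.conj (h.Kp_comm (h.mem_Kp hy c)) a b ha hb).mul_right (cf a b ha hb).inv_right

omit [Finite G] in
theorem types' : ∃ l ∈ F.L, ∃ k ∈ F.K, E.z = l * k ∧ Commute E.z k ∧
    (k * k = F.z ∧ ¬ 8 ∣ (F.π E.z).support.card ∨ E.z ∈ F.L ∧ 8 ∣ (F.π E.z).support.card) := by
  obtain ⟨l, hl, k, hk, j, e, s, ll, -⟩ := h.types
  have c := h.fr.cLK hl hk
  have kk : l * l * (k * k) = 1 := by rw [← pow_two, ← pow_two, ← c.mul_pow, ← e, pow_two, h.fe.zz]
  refine ⟨l, hl, k, hk, e, e ▸ c.mul_left (Commute.refl k), ?_⟩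
  rcases Nat.even_or_odd' j with ⟨i, rfl | rfl⟩
  · rw [pow_mul, pow_two, h.fr.zz, one_pow] at ll
    refine .inr ⟨?_, by omega⟩
    rcases h.u k hk (by rwa [ll, one_mul] at kk) with a | a <;> rw [e, a]
    exacts [by simpa using hl, mul_mem hl h.fr.zL]
  · exact .inl ⟨by rw [eq_inv_of_mul_eq_one_right kk, ll, pow_odd h.fr.zz ⟨i, rfl⟩, h.fr.zi], by omega⟩

theorem type4 : E.z ∈ F.L ∧ 8 ∣ (F.π E.z).support.card := by
  obtain ⟨l, hl, k, hk, e, ck, ⟨kk, -⟩ | f⟩ := h.types'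
  swap
  · exact f
  obtain ⟨n, s⟩ := h.symm.noII hk ck kk
  obtain ⟨-, -, k', hk', -, ck', ⟨kk', -⟩ | f⟩ := h.symm.types'
  swap
  · omega
  have s' := (h.noII hk' ck' kk').2
  refine (n ?_).elim
  obtain ⟨w, hw, -, -, -, -, -, -, -, w1⟩ := exists_w h.ττ (by simp)
  obtain ⟨x, hx, rfl⟩ := h.fr.im _ hw
  have w3 : F.π (x * x) = F.π E.z := by rw [h.fr.mul (h.fr.cL hx) (h.fr.cL hx), w1 s']
  have cx := (h.fr.comm_X0 h.cm hx (root_mem_X0 (n := 2) hw (by rw [pow_two, w1 s']))).symm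
  have cl : Commute E.z l := e ▸ (Commute.refl l).mul_left (h.fr.cLK hl hk).symm
  have : E.π l ∈ A := by
    rcases h.fr.eqL (mul_mem hx hx) hl (w3.trans (by rw [e, h.fr.πLK hl hk])) with a | a <;> rw [a]
    · rw [h.fe.mul cx cx]; exact sq_mem _
    · rw [h.fe.mul (cx.mul_right cx) h.cm.symm, h.fe.mul cx cx]; exact mul_mem (sq_mem _) h.inner'
  have e2 := h.fe.πz
  rw [e, h.fe.mul cl ck] at e2
  rw [eq_inv_of_mul_eq_one_right e2]
  exact inv_mem this

theorem sm : F.Sm := by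
  by_contra n
  obtain ⟨y, hy, c, ⟨k, e⟩, a⟩ := h.big h.inner' (mt h.sm_iff.1 n)
  obtain ⟨i, b, d⟩ := exists_sq k e a
  have := (h.noII (pow_mem hy i) (c.pow_right i) (d.resolve_left fun d => b (h.symm.u _ (pow_mem hy i) d))).2
  have := h.type4.2
  omega

theorem tz : ∃ c ∈ F.L, c * E.z * c⁻¹ = E.z * F.z := by
  obtain ⟨c, e⟩ := (dc h.fr h.q).conj_mul_t (z := ⟨_, h.type4.1⟩) h.ττ h.τ1
  exact ⟨c, c.2, congrArg Subtype.val e⟩

theorem le8 : (E.π F.z).support.card ≤ 8 := by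
  by_contra h8
  have D := dc h.fr h.q
  have s := h.type4
  have s0 : (F.π E.z).support.card ≠ 0 := fun e => h.τ1 (card_support_eq_zero.1 e)
  obtain ⟨p, hp, -⟩ := pick (τ := F.π E.z) [] (by simp only [List.length_nil]; omega)
  obtain ⟨q, hq, h1⟩ := pick (τ := F.π E.z) [p, F.π E.z p] (by simp only [List.length_cons, List.length_nil]; omega)
  simp only [List.mem_cons, List.not_mem_nil, or_false, not_or] at h1
  have hn := Recog.nodup_inv h.ττ hp hq h1.1 h1.2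
  obtain ⟨a, ha⟩ := D.lift2 hp.symm hq.symm
  have az : Commute E.z a := (congrArg Subtype.val (D.comm_part (z := ⟨_, s.1⟩) h.ττ hn ha)).symm
  have aa : a.1 * a = F.z := congrArg Subtype.val (D.q a _ _ _ _ hn ha)
  change F.π a = _ at ha
  obtain ⟨γ, g3, gz, n1, n2⟩ := Recog.exists_three (α := E.π a) (ζ := E.π F.z)
    (by rw [← h.fe.mul az az, aa]) h.symm.ττ (by omega)
  obtain ⟨c, hc, rfl, c3⟩ := h.fe.odd_lift (mem_of_odd (by decide) g3) (by decide) g3
  have cz := (h.fe.comm_odd hc h.cm.symm (Commute.symm gz) (by decide) c3).symm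
  have ct := h.fe.cL hc
  have ca := h.fr.cL a.2
  have cτ := h.fr.comm cz h.cm ct.symm
  have bz := (ct.mul_right az).mul_right ct.inv_right
  have hb := h.fr.nL cz a.2
  have e1 : F.π (c * a * c⁻¹) = fl (F.π E.z) (F.π c p) * fl (F.π E.z) (F.π c q) := by
    rw [h.fr.conj cz ca, ha, ← fl_conj cτ, ← fl_conj cτ, conj_mul]; rfl
  have e2 : F.π (c * a * c⁻¹ * a) = F.π (a * (c * a * c⁻¹)) := by
    rw [h.fr.mul (h.fr.cL hb) ca, h.fr.mul ca (h.fr.cL hb), e1, ha]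
    have := fl_comm h.ττ
    exact ((this _ _).mul_right (this _ _)).mul_left ((this _ _).mul_right (this _ _))
  rcases h.fr.eqL (mul_mem hb a.2) (mul_mem a.2 hb) e2 with e | e
  · have := congrArg E.π e
    rw [h.fe.mul az bz, h.fe.mul bz az, h.fe.conj ct az] at this
    exact n1 this
  · have := congrArg E.π e
    rw [h.fe.mul az bz, h.fe.mul (bz.mul_right az) h.cm.symm, h.fe.mul bz az, h.fe.conj ct az] at this
    exact n2 this

theorem eq8 : (F.π E.z).support.card = 8 := by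
  have := h.symm.le8
  have := h.type4.2
  have s0 : (F.π E.z).support.card ≠ 0 := fun e => h.τ1 (card_support_eq_zero.1 e)
  omega

theorem le3 : m ≤ 3 := by
  by_contra h12
  have D := dc h.fr h.q
  have h8 := h.eq8
  let z : F.L := ⟨_, h.type4.1⟩
  have hζ : pL h.fr z * pL h.fr z = 1 := h.ττ
  change (pL h.fr z).support.card = 8 at h8
  set π := pL h.fr
  obtain ⟨p, hp, -⟩ := pick (τ := π z) [] (by simp only [List.length_nil]; omega)
  obtain ⟨q, hq, n2⟩ := pick (τ := π z) [p, π z p] (by simp only [List.length_cons, List.length_nil]; omega)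
  obtain ⟨r, hr, n3⟩ := pick (τ := π z) [p, π z p, q, π z q] (by simp only [List.length_cons, List.length_nil]; omega)
  simp only [List.mem_cons, List.not_mem_nil, or_false, not_or] at n2 n3
  have m1 := Recog.nodup_inv hζ hp hq n2.1 n2.2
  have m2 := Recog.nodup_inv hζ hp hr n3.1 n3.2.1
  have m3 := Recog.nodup_inv hζ hq hr n3.2.2.1 n3.2.2.2
  obtain ⟨a₁, ha₁⟩ := D.lift2 hp.symm hq.symm
  obtain ⟨a₂, ha₂⟩ := D.lift2 hp.symm hr.symm
  have ha := D.anti (D.q _ _ _ _ _ m1 ha₁) (D.q _ _ _ _ _ m2 ha₂) (D.q _ _ _ _ _ m3 (by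
    rw [map_mul, ha₁, ha₂, Recog.swap_comm_of_nodup m1, mul_assoc, swap_mul_self_mul]))
  obtain ⟨e, he⟩ : ∃ e : Fin 4 ↪ Fin (m + 8), ∀ i, e i ∈ (π z).supportᶜ :=
    Function.Embedding.exists_of_card_le_finset (by rw [Finset.card_compl]; simp; omega) |>.imp
      fun e h i => h ⟨i, rfl⟩
  have fe : ∀ i, π z (e i) = e i := fun i => by simpa using he i
  have ne : ∀ {x}, π z x ≠ x → ∀ i, e i ≠ x ∧ e i ≠ π z x := fun {x} h i =>
    ⟨fun E => h (E ▸ fe i), fun E => h (by rw [← E]; apply (π z).injective; rw [fe, E])⟩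
  have fa₁ : ∀ i, π a₁ (e i) = e i := fun i => by
    rw [ha₁, Perm.mul_apply, swap_apply_of_ne_of_ne (ne hq i).1 (ne hq i).2,
      swap_apply_of_ne_of_ne (ne hp i).1 (ne hp i).2]
  have fa₂ : ∀ i, π a₂ (e i) = e i := fun i => by
    rw [ha₂, Perm.mul_apply, swap_apply_of_ne_of_ne (ne hr i).1 (ne hr i).2,
      swap_apply_of_ne_of_ne (ne hp i).1 (ne hp i).2]
  obtain ⟨b, hb⟩ := D.lift2 (a := e 0) (b := e 1) (c := e 2) (d := e 3) (by simp) (by simp)
  obtain ⟨d, hd, d3⟩ := D.exists_odd (σ := swap (e 0) (e 1) * swap (e 1) (e 2)) (m := 3) (by decide)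
    (by rw [← via_swap, ← via_swap, ← map_mul, ← map_pow,
      show (swap 0 1 * swap 1 2 : Perm (Fin 4)) ^ 3 = 1 by decide, map_one])
  have mb : [e 0, e 1, e 2, e 3].Nodup := by simp
  have dc : ∀ h, (∀ i, π h (e i) = e i) → h * d = d * h := fun h hh =>
    D.comm_of_odd (by decide) d3 (by
      rw [hd, ← mul_assoc, mul_swap_eq_swap_mul (π h), mul_assoc, mul_swap_eq_swap_mul (π h), hh, hh,
        hh, mul_assoc])
  have up : ∀ {x : F.L}, x * z = z * x → Commute E.z x := fun e => (congrArg Subtype.val e).symm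
  have bz := up (D.comm_of_fix mb hb (fe 0) (fe 1) (fe 2) (fe 3)).symm
  have dz := up (dc z fe).symm
  have az₁ := up (D.comm_part hζ m1 ha₁)
  have az₂ := up (D.comm_part hζ m2 ha₂)
  have bb := D.q _ _ _ _ _ mb hb
  have hb' := D.anti (y := d * b * d⁻¹) bb (by rw [conj_mul, bb, D.cen, mul_inv_cancel_right])
    (D.q _ (e 0) (e 2) (e 1) (e 3) (by simp) (by
      simp only [map_mul, map_inv, hb, hd, ← via_swap]
      simp only [← map_mul, ← map_inv]
      rw [show (swap 0 1 * swap 2 3 * (swap 0 1 * swap 1 2 * (swap 0 1 * swap 2 3) * (swap 0 1 * swap 1 2)⁻¹) :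
        Perm (Fin 4)) = swap 0 2 * swap 1 3 by decide]))
  have b'z := (dz.mul_right bz).mul_right dz.inv_right
  have cm : ∀ {x : F.L}, Commute E.z x → E.π x * E.π F.z = E.π F.z * E.π x := fun {x} c =>
    h.fe.comm c h.cm.symm (h.fr.cL x.2).symm
  refine Recog.perm_false (ζ := E.π F.z) (β := E.π b) (δ := E.π d) (α₁ := E.π a₁) (α₂ := E.π a₂)
    h.symm.ττ h.symm.eq8 (cm bz) (cm dz) ?_ ?_ (cm az₁) (cm az₂)
    (h.fe.comm az₁ dz (congrArg Subtype.val (dc _ fa₁))) (h.fe.comm az₂ dz (congrArg Subtype.val (dc _ fa₂))) ?_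
  · rw [← h.fe.pow dz, show d.1 ^ 3 = 1 from congrArg Subtype.val d3, h.fe.one]
  · have := congrArg (fun x : F.L => E.π x) hb'
    simp only [Subgroup.coe_mul, Subgroup.coe_inv] at this
    rwa [h.fe.mul bz b'z, h.fe.mul (b'z.mul_right bz) h.cm.symm, h.fe.mul b'z bz, h.fe.conj dz bz] at this
  · have := congrArg (fun x : F.L => E.π x) ha
    simp only [Subgroup.coe_mul] at this
    rwa [h.fe.mul az₁ az₂, h.fe.mul (az₂.mul_right az₁) h.cm.symm, h.fe.mul az₂ az₁] at this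

theorem conj_t {v : G} (hv : v ∈ F.L) (vv : v * v = 1) (v1 : v ≠ 1) : v = F.z ∨ ∃ l ∈ F.L, l * E.z * l⁻¹ = v := by
  by_cases e : F.π v = 1
  · exact .inl ((h.fr.LK hv ((h.fr.ker (h.fr.cL hv)).1 e)).resolve_left v1)
  have D := dc h.fr h.q
  have := D.card_support (z := ⟨v, hv⟩) (Subtype.ext vv)
  have a : (pL h.fr ⟨v, hv⟩).support.card ≤ m + 8 := (Finset.card_le_univ _).trans (by simp)
  have b : (pL h.fr ⟨v, hv⟩).support.card ≠ 0 := fun b => e (card_support_eq_zero.1 b)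
  have := h.le3
  obtain ⟨l, f⟩ := D.exists_conj (x := ⟨_, h.type4.1⟩) (y := ⟨v, hv⟩) h.ττ
    (by rw [← map_mul]; exact (congrArg F.π vv).trans h.fr.one) e (h.eq8.trans (by omega))
  exact .inr ⟨l, l.2, congrArg Subtype.val f⟩

theorem all_inner (n : ∀ H : Subgroup G, H.Normal → H.index ≠ 2) {c : G} (hc : Commute F.z c) : F.π c ∈ A := by
  by_contra a
  have i : (A).index = 2 := alternatingGroup.index_eq_two
  obtain ⟨ρ, rr, r1⟩ : ∃ ρ : Perm (Fin (m + 8)), ρ * ρ = 1 ∧ ρ ∉ A := ⟨swap 0 1, swap_mul_self _ _, fun e => by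
    have := mem_alternatingGroup.1 e
    rw [sign_swap (by simp)] at this
    exact absurd this (by decide)⟩
  have s := h.sm
  obtain ⟨u, uu, cu, nu⟩ : ∃ u, u * u = 1 ∧ Commute F.z u ∧ F.π u ∉ A := by
    obtain ⟨l, hl, e⟩ := h.fr.im _ ((mul_mem_iff_of_index_two i (a := ρ) (b := (F.π c)⁻¹)).2 (by simp [a, r1]))
    have c1 := (h.fr.cL hl).mul_right hc
    obtain ⟨j, k, o, e1⟩ := exists_two (l * c)
    have c2 := c1.pow_right j
    have e2 : F.π ((l * c) ^ j) = ρ := by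
      rw [h.fr.pow c1, h.fr.mul (h.fr.cL hl) hc, e, inv_mul_cancel_right, pow_odd rr o]
    generalize (l * c) ^ j = x at *
    rcases s (x * x) ((h.fr.ker (c2.mul_right c2)).1 (by rw [h.fr.mul c2 c2, e2, rr])) k
      (by rw [(Commute.refl x).mul_pow, e1, one_mul]) with d | d
    · exact ⟨x, d, c2, e2 ▸ r1⟩
    · obtain ⟨w, w1, w2, _, _, _, _, w3, w4, -⟩ := exists_w rr (by simp)
      obtain ⟨y, hy, rfl⟩ := h.fr.im w w1
      have c3 := h.fr.comm_sq hy c2 (e2 ▸ w2)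
      have mm := mul_mem hy hy
      refine ⟨y * y * x, ?_, (h.fr.cL mm).mul_right c2, fun f => r1 ?_⟩
      · rw [← pow_two, c3.mul_pow, pow_two, pow_two x, d,
          h.q _ mm _ _ _ _ w4 ((h.fr.mul (h.fr.cL hy) (h.fr.cL hy)).trans w3), h.fr.zz]
      · rwa [h.fr.mul (h.fr.cL mm) c2, mul_mem_cancel_left (h.fr.mem mm), e2] at f
  have u1 : u ≠ 1 := fun e => nu (by rw [e, h.fr.one]; exact one_mem _)
  obtain ⟨g, c1, c2⟩ := h.fr.thompson n i (fun T hT => h.fr.syl_top hT fun E p =>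
    ((CP.mk ⟨p, h.q⟩ h.u).tz).imp fun c a => ⟨h.fr.cL a.1, a.2⟩) (ord2 uu u1) cu
  have vv : g * u * g⁻¹ * (g * u * g⁻¹) = 1 := by rw [conj_mul, uu]; simp
  obtain ⟨x, e⟩ : ∃ x, x * F.z * x⁻¹ = u := isConj_iff.1 (IsConj.trans (by
    rcases h.conj_t (h.fr.inv_mem_L s c1 c2 vv) vv (by simpa using u1) with e | ⟨l, -, e⟩
    exacts [e ▸ IsConj.refl _, h.conj.trans (isConj_iff.2 ⟨l, e⟩)]) (isConj_iff.2 ⟨g, rfl⟩).symm)
  subst e
  exact nu (CP.mk ⟨h.fr.pr cu fun e => nu (by rw [e, h.fr.πz]; exact one_mem _), h.q⟩ h.u).inner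

theorem odd_le (hm : m ≤ 2) {k : G} (hk : k ∈ F.K) (o : Odd (orderOf k)) : k ∈ E.K := by
  have ck := h.fr.cLK h.type4.1 hk
  obtain ⟨O, -, b⟩ := h.fr.exists_O h.sm
  have e8 := h.symm.eq8
  have e : E.π k ^ orderOf k = 1 := by rw [← h.fe.pow ck, pow_orderOf_eq_one, h.fe.one]
  have c := h.fe.comm ck h.cm.symm (h.fr.cK hk).symm
  have cf : Cf (E.π F.z) (E.π k) := cf_of h.symm.ττ (hf h.symm.ττ (by omega)) c o e fun x hx xx =>
    .inl (eq_one_of_odd (k := 1) (by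
      obtain ⟨l, hl, c, rfl⟩ := h.fe.lift_X0 h.cm.symm hx
      have cl := h.fe.cL hl
      have c2 := ((cl.mul_right ck).mul_right cl.inv_right).mul_right ck.inv_right
      have := ((b _).1 (mul_mem ((b _).2 ⟨h.fr.nK c.symm hk, (ord_cj l k).symm ▸ o⟩)
        (inv_mem ((b _).2 ⟨hk, o⟩)))).2
      rw [← h.fe.conj cl ck, ← h.fe.inv ck, ← h.fe.mul ((cl.mul_right ck).mul_right cl.inv_right) ck.inv_right]
      exact this.of_dvd_nat (orderOf_dvd_of_pow_eq_one (by rw [← h.fe.pow c2, pow_orderOf_eq_one, h.fe.one])))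
      (by rwa [pow_one, pow_two]))
  have s : (E.π k).support.card ≤ 2 := (Finset.card_le_card (t := (E.π F.z).supportᶜ) fun a ha => by
    rw [Finset.mem_compl, mem_support]
    exact fun n => mem_support.1 ha (cf.fix h.symm.ττ (h3p h.symm.ττ (by omega)) c o e n)).trans
      (by rw [Finset.card_compl, e8]; simp; omega)
  refine (h.fe.ker ck).1 (card_support_le_one.1 (by_contra fun n => ?_))
  have := (card_support_eq_two.1 (by omega : (E.π k).support.card = 2)).sign_eq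
  rw [mem_alternatingGroup.1 (mem_of_odd o e)] at this
  exact absurd this (by decide)

end CP

theorem cent [Finite G] [IsSimpleGroup G] (hG : ¬ IsMulCommutative G) {L : Subgroup G}
    (hL : IsStandardSubgroup L) (hX : IsNonsplitDoubleCover L A) (cy : Cy (centralizer (L : Set G))) :
    (m = 0 ∨ m = 3) ∧ ∃ z : G, orderOf z = 2 ∧ IsNonsplitDoubleCover (centralizer {z}) A := by
  suffices m = 0 ∨ m = 3 from ⟨this, Alt.cent hG this hL hX⟩
  obtain ⟨p, t, D, hc⟩ := Recog.exists_dc hX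
  have b := Cfsg.Agent.S2119.result (m + 8) (by omega) (by omega)
  obtain ⟨F, h, rfl, hK, hπ, -⟩ := exists_fr hL hX.1 (S0 := A) p
    (by ext σ; exact ⟨fun ⟨l, e⟩ => e ▸ mem_alternatingGroup.2 (D.sgn l), fun e => D.surj σ (mem_alternatingGroup.1 e)⟩)
    (by ext l; exact ⟨fun e => (hc l).2 (D.ker l e), fun e => by
      rcases (hc l).1 e with rfl | rfl
      exacts [one_mem _, D.πt]⟩)
    (fun α => (b.2 α).imp fun s e x => by rw [← e]; rfl)
    fun s hs => b.1 (by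
      ext x : 2
      rw [map_one]
      exact conj_of_comm (hs x x.2).symm)
  have tz : t.1 = F.z := (h.LK t.2 ((h.ker (h.cL t.2)).1 ((hπ t).trans D.πt))).resolve_left fun e => D.ne (Subtype.ext e)
  have q : Q F := fun l hl a b c d n e =>
    (congrArg Subtype.val (D.q ⟨l, hl⟩ a b c d n ((hπ ⟨l, hl⟩).symm.trans e))).trans tz
  have u : Uq F := fun k hk => h.cuq (hK ▸ cy) hk
  obtain ⟨E, pr⟩ := h.exists_pr' hG
  have k : CP F E := ⟨⟨pr, q⟩, u⟩
  have m3 := k.le3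
  by_cases m2 : m ≤ 2
  swap
  · omega
  have i : ∀ c, Commute F.z c → F.π c ∈ A := fun c => k.all_inner fun H n => no_two hG H
  have s := k.sm
  suffices m + 8 = 8 ∨ m + 8 = 11 by omega
  refine Cfsg.Agent.S1645.result (m + 8) (by omega) F.z h.oz
    (h.cent_eq (fun x => h.K_le (h.odd_bot s fun v o c => or_iff_not_imp_left.2 fun n => ?_) s) i ▸ hX)
  obtain ⟨g, rfl⟩ : ∃ g, g * F.z * g⁻¹ = v := isConj_iff.1 (by
    obtain ⟨l, -, e⟩ := (k.conj_t (h.inv_mem_L s c (i v c) (sq_of o)) (sq_of o) (ne_of o)).resolve_left n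
    exact pr.conj.trans (isConj_iff.2 ⟨l, e⟩))
  exact ⟨g, rfl, fun x hx ox => (CP.mk ⟨h.pr c n, q⟩ u).odd_le m2 hx ox⟩

end CF.TZ.Big
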