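import Cfsg.Agent.StdZ.Alt
import Cfsg.Agent.StdZ.Cyc
import Cfsg.Agent.Recog.DCBig

/-! Involutions of symmetric groups of arbitrary degree at least eight. -/

set_option autoImplicit false

namespace CF.TZ.Big

open Equiv Equiv.Perm Subgroup CF.StdZ CF.StdZ.Alt

variable {Ω : Type*} [DecidableEq Ω] [Fintype Ω] {τ η : Perm Ω} {a b c d : Ω}

section Via

variable {ι : Type*} [Fintype ι] [DecidableEq ι] (e : ι ↪ Ω)

omit [DecidableEq Ω] [Fintype Ω] [Fintype ι] [DecidableEq ι] in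
theorem via_ap (w : Perm ι) (i : ι) : viaEmbeddingHom e w (e i) = e (w i) := viaEmbedding_apply _ _ _

omit [DecidableEq Ω] [Fintype Ω] [Fintype ι] in
theorem via_comm {τ0 w : Perm ι} (h : ∀ i, τ (e i) = e (τ0 i)) (k : Commute w τ0) :
    Commute (viaEmbeddingHom e w) τ := Equiv.ext fun x => by
  by_cases hx : x ∈ Set.range e
  · obtain ⟨y, rfl⟩ := hx
    simp only [Perm.mul_apply, via_ap, h]
    exact congrArg e (DFunLike.congr_fun k.eq y)
  · have hx' : τ x ∉ Set.range e := by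
      rintro ⟨y, hy⟩
      exact hx ⟨τ0⁻¹ y, τ.injective (by rw [h, ap_inv, hy])⟩
    simp only [Perm.mul_apply, viaEmbeddingHom_apply]
    rw [viaEmbedding_apply_of_notMem _ _ _ hx, viaEmbedding_apply_of_notMem _ _ _ hx']

omit [Fintype Ω] [Fintype ι] in
theorem via_swap (i j : ι) : viaEmbeddingHom e (swap i j) = swap (e i) (e j) := Equiv.ext fun x => by
  by_cases hx : x ∈ Set.range e
  · obtain ⟨y, rfl⟩ := hx
    rw [via_ap, e.injective.swap_apply]
  · rw [viaEmbeddingHom_apply, viaEmbedding_apply_of_notMem _ _ _ hx,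
      swap_apply_of_ne_of_ne (fun E => hx ⟨i, E.symm⟩) fun E => hx ⟨j, E.symm⟩]

theorem via_sign (w : Perm ι) : sign (viaEmbeddingHom e w) = sign w := by
  classical
  rw [viaEmbeddingHom_apply, viaEmbedding]
  convert sign_extendDomain w _

end Via

omit [DecidableEq Ω] [Fintype Ω] in
theorem emb {n : ℕ} (f : Fin n → Ω) (h : (List.ofFn f).Nodup) : ∃ e : Fin n ↪ Ω, ∀ i, e i = f i :=
  ⟨⟨f, List.nodup_ofFn.1 h⟩, fun _ => rfl⟩

theorem pick (l : List Ω) (h : l.length < τ.support.card) : ∃ b, τ b ≠ b ∧ b ∉ l := by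
  obtain ⟨b, h1, h2⟩ := Finset.exists_mem_notMem_of_card_lt_card ((List.toFinset_card_le l).trans_lt h)
  exact ⟨b, mem_support.1 h1, by simpa using h2⟩

theorem pickf (l : List Ω) (h : l.length + τ.support.card < Fintype.card Ω) : ∃ b, τ b = b ∧ b ∉ l := by
  obtain ⟨b, h1, h2⟩ := Finset.exists_mem_notMem_of_card_lt_card (s := l.toFinset) (t := τ.supportᶜ)
    ((List.toFinset_card_le l).trans_lt (by rw [Finset.card_compl]; omega))
  exact ⟨b, by simpa using h1, by simpa using h2⟩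

omit [DecidableEq Ω] [Fintype Ω] in
theorem sep (ττ : τ * τ = 1) (h2 : b ≠ τ a) : τ b ≠ a := fun e => h2 (by rw [← e, Recog.inv_apply2 ττ])

theorem h3p (ττ : τ * τ = 1) (h : 4 < τ.support.card) : H3p τ := fun a x => by
  obtain ⟨b, h1, h2⟩ := pick (τ := τ) [a, τ a, x, τ x] h
  simp only [List.mem_cons, List.not_mem_nil, or_false, not_or] at h2
  exact ⟨b, h1, h2.1, h2.2.1, h2.2.2.1, sep ττ h2.2.2.2⟩

theorem h4 (h : τ.support.card + 4 ≤ Fintype.card Ω) : H4 τ := fun a b c => by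
  obtain ⟨d, h1, h2⟩ := pickf (τ := τ) [a, b, c] (by simp; omega)
  simp only [List.mem_cons, List.not_mem_nil, or_false, not_or] at h2
  exact ⟨d, h1, h2⟩

/-- the standard element whose square is a double transposition -/
def w6 : Perm (Fin 6) := swap 0 2 * swap 1 3 * swap 0 1 * swap 4 5

theorem w_of {τ0 : Perm (Fin 6)} (e : Fin 6 ↪ Ω) (h : ∀ i, τ (e i) = e (τ0 i)) (k : Commute w6 τ0) :
    ∃ w ∈ alternatingGroup Ω, Commute w τ ∧ w * w = swap (e 0) (e 1) * swap (e 2) (e 3) ∧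
      [e 0, e 1, e 2, e 3].Nodup :=
  ⟨_, mem_alternatingGroup.2 ((via_sign e w6).trans (by decide)), via_comm e h k, by
    rw [← map_mul, ← via_swap, ← via_swap, ← map_mul, show w6 * w6 = swap 0 1 * swap 2 3 by decide], by simp⟩

omit [DecidableEq Ω] [Fintype Ω] in
theorem emb3 (ττ : τ * τ = 1) (ha : τ a ≠ a) (hb : τ b ≠ b) (hc : τ c ≠ c) (h1 : b ∉ [a, τ a])
    (h2 : c ∉ [a, τ a, b, τ b]) : ∃ e : Fin 6 ↪ Ω, e 0 = a ∧ e 1 = τ a ∧ e 2 = b ∧ e 3 = τ b ∧ e 4 = c ∧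
      ∀ i, τ (e i) = e ((swap 0 1 * swap 2 3 * swap 4 5 : Perm (Fin 6)) i) := by
  simp only [List.mem_cons, List.not_mem_nil, or_false, not_or] at h1 h2
  obtain ⟨e, he⟩ := emb ![a, τ a, b, τ b, c, τ c] (by
    simp [ha.symm, hb.symm, hc.symm, Ne.symm h1.1, Ne.symm h1.2, Ne.symm h2.1, Ne.symm h2.2.1, Ne.symm h2.2.2.1,
      Ne.symm h2.2.2.2, (sep ττ h1.2).symm, (sep ττ h2.2.1).symm, (sep ττ h2.2.2.2).symm])
  refine ⟨e, he _, he _, he _, he _, he _, fun i => ?_⟩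
  rw [he, he]
  fin_cases i <;> first | rfl | exact Recog.inv_apply2 ττ _

theorem hf (ττ : τ * τ = 1) (h : 4 < τ.support.card) : HF τ := fun a b ha hb => by
  by_cases h1 : b ∈ [a, τ a]
  · have : fl τ b = fl τ a := by
      simp only [List.mem_cons, List.not_mem_nil, or_false] at h1
      rcases h1 with rfl | rfl
      · rfl
      · rw [fl, Recog.inv_apply2 ττ, swap_comm, fl]
    rw [this, fl, swap_mul_self]
    exact one_mem _
  obtain ⟨c, hc, h2⟩ := pick (τ := τ) [a, τ a, b, τ b] h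
  obtain ⟨e, e0, e1, e2, e3, -, k⟩ := emb3 ττ ha hb hc h1 h2
  obtain ⟨w, hw, c1, c2, -⟩ := w_of e k (show _ = _ by decide)
  rw [fl, fl, ← e1, ← e3, ← e0, ← e2, ← c2]
  exact sq_mem_X0 hw c1

theorem eq_dbl (ττ : τ * τ = 1) (ha : τ a ≠ a) (hb : τ b ≠ b) (h1 : b ∉ [a, τ a]) (h : τ.support.card ≤ 4) {x : Ω}
    (hx : τ x ≠ x) : x ∈ [a, τ a, b, τ b] := by
  simp only [List.mem_cons, List.not_mem_nil, or_false, not_or] at h1
  have n := Recog.nodup_inv ττ ha hb h1.1 h1.2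
  have : [a, τ a, b, τ b].toFinset = τ.support := Finset.eq_of_subset_of_card_le (fun y hy => by
    simp only [List.toFinset_cons, List.toFinset_nil, insert_empty_eq, Finset.mem_insert, Finset.mem_singleton] at hy
    rcases hy with rfl | rfl | rfl | rfl <;> simp only [apply_mem_support, mem_support.2 ha, mem_support.2 hb])
    (by rw [List.toFinset_card_of_nodup n]; exact h)
  exact List.mem_toFinset.1 (this ▸ mem_support.2 hx)

omit [DecidableEq Ω] [Fintype Ω] in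
theorem mf (ha : τ a ≠ a) (hb : τ b = b) : a ≠ b ∧ τ a ≠ b :=
  ⟨fun e => ha (e ▸ hb), fun e => ha (by rw [← hb] at e; rw [τ.injective e, hb])⟩

theorem dbl_eq (ττ : τ * τ = 1) (ha : τ a ≠ a) (hb : τ b ≠ b) (h1 : b ∉ [a, τ a]) (h : τ.support.card ≤ 4) :
    τ = swap a (τ a) * swap b (τ b) := Eq.symm <| Equiv.ext fun x => by
  have h1' := h1
  simp only [List.mem_cons, List.not_mem_nil, or_false, not_or] at h1'
  have i := Recog.inv_apply2 ττ
  by_cases hx : τ x = x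
  · rw [Perm.mul_apply, swap_apply_of_ne_of_ne (mf hb hx).1.symm (mf hb hx).2.symm,
      swap_apply_of_ne_of_ne (mf ha hx).1.symm (mf ha hx).2.symm, hx]
  have := eq_dbl ττ ha hb h1 h hx
  simp only [List.mem_cons, List.not_mem_nil, or_false] at this
  rcases this with rfl | rfl | rfl | rfl
  · rw [Perm.mul_apply, swap_apply_of_ne_of_ne (Ne.symm h1'.1) (sep ττ h1'.2).symm, swap_apply_left]
  · rw [Perm.mul_apply, swap_apply_of_ne_of_ne (Ne.symm h1'.2) (fun e => h1'.1 (τ.injective e).symm),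
      swap_apply_right, i]
  · rw [Perm.mul_apply, swap_apply_left, swap_apply_of_ne_of_ne (sep ττ h1'.2) (fun e => h1'.1 (τ.injective e))]
  · rw [Perm.mul_apply, swap_apply_right, swap_apply_of_ne_of_ne h1'.1 h1'.2, i]

theorem exists_w (ττ : τ * τ = 1) (h8 : 8 ≤ Fintype.card Ω) : ∃ w ∈ alternatingGroup Ω, Commute w τ ∧
    ∃ a b c d, w * w = swap a b * swap c d ∧ [a, b, c, d].Nodup ∧ (τ.support.card = 4 → w * w = τ) := by
  by_cases h : τ.support.card ≤ 2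
  · obtain ⟨e, he⟩ : ∃ e : Fin 6 ↪ Ω, ∀ i, e i ∈ τ.supportᶜ :=
      Function.Embedding.exists_of_card_le_finset (by rw [Finset.card_compl]; simp; omega) |>.imp
        fun e h i => h ⟨i, rfl⟩
    obtain ⟨w, hw, c1, c2, n⟩ := w_of (τ := τ) (τ0 := 1) e (fun i => by simpa using he i) (Commute.one_right _)
    exact ⟨w, hw, c1, _, _, _, _, c2, n, fun k => by omega⟩
  obtain ⟨a, ha, -⟩ := pick (τ := τ) [] (by simp only [List.length_nil]; omega)
  obtain ⟨b, hb, h1⟩ := pick (τ := τ) [a, τ a] (by simp only [List.length_cons, List.length_nil]; omega)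
  by_cases k : 4 < τ.support.card
  · obtain ⟨c, hc, h2⟩ := pick (τ := τ) [a, τ a, b, τ b] k
    obtain ⟨e, -, -, -, -, -, k⟩ := emb3 ττ ha hb hc h1 h2
    obtain ⟨w, hw, c1, c2, n⟩ := w_of e k (show _ = _ by decide)
    exact ⟨w, hw, c1, _, _, _, _, c2, n, fun k => by omega⟩
  obtain ⟨c, hc, -⟩ := pickf (τ := τ) [] (by simp only [List.length_nil]; omega)
  obtain ⟨d, hd, h2⟩ := pickf (τ := τ) [c] (by simp only [List.length_cons, List.length_nil]; omega)
  have h1' := h1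
  simp only [List.mem_cons, List.not_mem_nil, or_false, not_or] at h1' h2
  have f : ∀ {x y}, τ x ≠ x → τ y = y → x ≠ y ∧ τ x ≠ y := mf
  obtain ⟨e, he⟩ := emb ![a, τ a, b, τ b, c, d] (by
    simp [ha.symm, hb.symm, Ne.symm h1'.1, Ne.symm h1'.2, (sep ττ h1'.2).symm, (f ha hc).1, (f ha hc).2, (f ha hd).1,
      (f ha hd).2, (f hb hc).1, (f hb hc).2, (f hb hd).1, (f hb hd).2, Ne.symm h2])
  obtain ⟨w, hw, c1, c2, n⟩ := w_of (τ := τ) (τ0 := swap 0 1 * swap 2 3) e (fun i => by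
    rw [he, he]
    fin_cases i <;> first | rfl | exact Recog.inv_apply2 ττ _ | exact hc | exact hd) (show _ = _ by decide)
  exact ⟨w, hw, c1, _, _, _, _, c2, n, fun _ => c2.trans (by
    rw [he, he, he, he]; exact (dbl_eq ττ ha hb h1 (by omega)).symm)⟩

omit [Fintype Ω] in
theorem root_ne (ηη : η * η = τ) (ττ : τ * τ = 1) (ha : τ a ≠ a) : τ (η a) ≠ η a ∧ η a ∉ [a, τ a] := by
  have c : Commute η τ := ηη ▸ (Commute.refl η).mul_right (Commute.refl η)
  have e : η (η a) = τ a := by rw [← Perm.mul_apply, ηη]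
  refine ⟨mv c ha, ?_⟩
  simp only [List.mem_cons, List.not_mem_nil, or_false, not_or]
  refine ⟨fun f => ha (by rw [← e, f, f]), fun f => ha ?_⟩
  rw [← e, f, ← Perm.mul_apply, c.eq, Perm.mul_apply, f, Recog.inv_apply2 ττ]

theorem root_odd (ηη : η * η = τ) (ττ : τ * τ = 1) (h : τ.support.card = 4) (f : ∀ a, τ a = a → η a = a) :
    η ∉ alternatingGroup Ω := fun m => by
  obtain ⟨a, ha, -⟩ := pick (τ := τ) [] (by simp only [List.length_nil]; omega)
  obtain ⟨hb, h1⟩ := root_ne ηη ττ ha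
  have s : η.support = τ.support := Finset.ext fun x => by
    rw [mem_support, mem_support, not_iff_not]
    exact ⟨fun e => by rw [← ηη, Perm.mul_apply, e, e], f x⟩
  have cy : IsCycle η := ⟨a, fun e => h1 (by simp [e]), fun x hx => by
    have := eq_dbl ττ ha hb h1 h.le (mem_support.1 (s ▸ mem_support.2 hx))
    simp only [List.mem_cons, List.not_mem_nil, or_false] at this
    rcases this with rfl | rfl | rfl | rfl
    exacts [SameCycle.refl _ _, ⟨2, by rw [← ηη, zpow_two]⟩, ⟨1, by simp⟩,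
      ⟨3, by rw [← ηη, show (3 : ℤ) = 2 + 1 by rfl, zpow_add_one, zpow_two]; rfl⟩]⟩
  have := cy.sign
  rw [mem_alternatingGroup.1 m, s, h] at this
  exact absurd this (by decide)

theorem exists_d (ηη : η * η = τ) (ττ : τ * τ = 1) (h : 6 < τ.support.card) :
    ∃ δ : Perm Ω, δ ^ 3 = 1 ∧ Commute δ τ ∧ ¬ Cf τ (η * δ * η⁻¹ * δ⁻¹) := by
  obtain ⟨p, hp, -⟩ := pick (τ := τ) [] (by simp only [List.length_nil]; omega)
  obtain ⟨hq, h0⟩ := root_ne ηη ττ hp
  obtain ⟨b, hb, h1⟩ := pick (τ := τ) [η p, τ (η p), p, τ p] (by simp only [List.length_cons, List.length_nil]; omega)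
  obtain ⟨c, hc, h2⟩ := pick (τ := τ) [η p, τ (η p), b, τ b, p, τ p] h
  simp only [List.mem_cons, List.not_mem_nil, or_false, not_or] at h0 h1 h2
  obtain ⟨e, e0, e1, e2, e3, e4, k⟩ := emb3 ττ hq hb hc (by simp [h1.1, h1.2.1])
    (by simp [h2.1, h2.2.1, h2.2.2.1, h2.2.2.2.1])
  have e5 : e 5 = τ c := by rw [← e4, k]; rfl
  refine ⟨viaEmbeddingHom e (swap 0 2 * swap 2 4 * swap 1 3 * swap 3 5), by
    rw [← map_pow, show (swap 0 2 * swap 2 4 * swap 1 3 * swap 3 5 : Perm (Fin 6)) ^ 3 = 1 by decide, map_one],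
    via_comm e k (show _ = _ by decide), fun cf => ?_⟩
  set δ := viaEmbeddingHom e (swap 0 2 * swap 2 4 * swap 1 3 * swap 3 5)
  have d1 : δ (η p) = b := by rw [← e0, via_ap, ← e2]; rfl
  have d2 : δ p = p := viaEmbedding_apply_of_notMem _ _ _ (by
    rintro ⟨i, hi⟩
    fin_cases i
    exacts [h0.1 (e0.symm.trans hi), sep ττ h0.2 (e1.symm.trans hi), h1.2.2.1 (e2.symm.trans hi),
      sep ττ h1.2.2.2 (e3.symm.trans hi), h2.2.2.2.2.1 (e4.symm.trans hi), sep ττ h2.2.2.2.2.2 (e5.symm.trans hi)])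
  have := cf.pair ττ (h3p ττ (by omega)) hb
  rw [← d1] at this
  simp only [Perm.mul_apply, inv_ap, d2] at this
  rw [d1] at this
  exact this.elim (Ne.symm h1.1) (sep ττ h1.2.1).symm

open scoped commutatorElement in
theorem noQ8 {σ : Perm Ω} (h : Fintype.card Ω ≤ 7) (e1 : τ * τ = σ * σ) (e2 : ⁅σ, τ⁆ = σ * σ)
    (e3 : σ * σ * (σ * σ) = 1) : σ * σ = 1 := by
  by_contra n
  obtain ⟨a, ha⟩ : ∃ a, (σ * σ) a ≠ a := by
    by_contra! f; exact n (Equiv.ext f)
  have s4 : σ ^ 4 = 1 := by rw [← e3]; simp only [pow_succ, pow_zero, one_mul, mul_assoc]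
  have c : τ * σ * τ⁻¹ = σ⁻¹ := by
    calc _ = τ * σ * τ⁻¹ * σ⁻¹ * σ := by group
      _ = (σ * σ)⁻¹ * σ := by rw [← e2, commutatorElement_inv, commutatorElement_def]
      _ = _ := by group
  have fr : ∀ (k : ℕ) (b : Ω), (σ * σ) b ≠ b → (σ ^ k) b = b → k % 4 = 0 := fun k b hb e => by
    rw [pow_eq_pow_mod k s4] at e
    have f : σ b ≠ b := fun f => hb (by rw [Perm.mul_apply, f, f])
    obtain h | h | h | h : k % 4 = 0 ∨ k % 4 = 1 ∨ k % 4 = 2 ∨ k % 4 = 3 := by omega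
    · exact h
    all_goals rw [h] at e
    exacts [(f (by simpa using e)).elim, (hb (by rwa [pow_two] at e)).elim,
      (f (by rw [← congrArg σ e, ← Perm.mul_apply, ← pow_succ', s4]; rfl)).elim]
  have od : ∀ k : ℕ, (σ ^ k * τ) a ≠ a := fun k e => ha (by
    rw [← e1, show τ * τ = σ ^ k * τ * (σ ^ k * τ) by
      rw [← mul_inv_cancel_left (σ ^ k) (τ * τ), ← inv_pow, ← c, conj_pow]; group, Perm.mul_apply, e, e])
  have ct : Commute τ (σ * σ) := e1 ▸ (Commute.refl τ).mul_right (Commute.refl τ)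
  have := Fintype.card_le_of_injective (fun x : Fin 4 × Fin 2 => (σ ^ x.1.val * τ ^ x.2.val) a) (by
    have key : ∀ i k : Fin 4, ∀ x y : Perm Ω, (σ ^ i.val * x) a = (σ ^ k.val * y) a →
        (σ ^ (4 - k.val + i.val) * x) a = y a := fun i k x y e => by
      rw [pow_add, mul_assoc, Perm.mul_apply, e, ← Perm.mul_apply, ← mul_assoc, ← pow_add,
        Nat.sub_add_cancel k.2.le, s4, one_mul]
    rintro ⟨i, j⟩ ⟨k, l⟩ e
    by_cases f : j = l
    · subst f
      have := fr _ _ (mv (ct.pow_left j.val) ha) (key _ _ _ _ e)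
      exact Prod.ext (Fin.ext (by dsimp only at this ⊢; omega)) rfl
    · fin_cases j <;> fin_cases l
      exacts [(f rfl).elim, (od _ (by simpa using key _ _ _ _ e.symm)).elim, (od _ (by simpa using key _ _ _ _ e)).elim,
        (f rfl).elim])
  simp at this
  omega

theorem sl_perm (ττ : τ * τ = 1) (o : τ ∉ alternatingGroup Ω) (h6 : 6 ≤ Fintype.card Ω) :
    ∃ ι δ y : Perm Ω, ι ∈ alternatingGroup Ω ∧ δ ^ 3 = 1 ∧ Commute ι τ ∧ Commute δ τ ∧ ι * ι = 1 ∧
      y = ι * (δ * δ * ι * (δ * δ)⁻¹) ∧ y * y = 1 ∧ y ≠ 1 ∧ Commute y (δ * δ * y * (δ * δ)⁻¹) ∧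
      y * (δ * δ * y * (δ * δ)⁻¹) ≠ 1 := by
  suffices ∃ e : Fin 6 ↪ Ω, ∃ τ0, (∀ i, τ (e i) = e (τ0 i)) ∧ ∃ ι δ y : Perm (Fin 6), sign ι = 1 ∧ δ ^ 3 = 1 ∧
      ι * τ0 = τ0 * ι ∧ δ * τ0 = τ0 * δ ∧ ι * ι = 1 ∧ y = ι * (δ * δ * ι * (δ * δ)⁻¹) ∧ y * y = 1 ∧ y ≠ 1 ∧
      y * (δ * δ * y * (δ * δ)⁻¹) = δ * δ * y * (δ * δ)⁻¹ * y ∧ y * (δ * δ * y * (δ * δ)⁻¹) ≠ 1 by
    obtain ⟨e, τ0, k, ι, δ, y, h⟩ := this
    refine ⟨viaEmbeddingHom e ι, viaEmbeddingHom e δ, viaEmbeddingHom e y, mem_alternatingGroup.2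
      ((via_sign e ι).trans h.1), ?_, via_comm e k h.2.2.1, via_comm e k h.2.2.2.1, ?_⟩ <;>
    simp only [Commute, SemiconjBy, ← map_mul, ← map_inv, ← map_pow, Ne, (viaEmbeddingHom_injective e).eq_iff,
      map_eq_one_iff _ (viaEmbeddingHom_injective e)]
    exacts [h.2.1, h.2.2.2.2]
  obtain ⟨a, ha, -⟩ := pick (τ := τ) [] (Nat.pos_of_ne_zero fun e => o (card_support_eq_zero.1 e ▸ one_mem _))
  by_cases h : τ.support.card ≤ 2
  · obtain ⟨f, hf⟩ : ∃ e : Fin 4 ↪ Ω, ∀ i, e i ∈ τ.supportᶜ :=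
      Function.Embedding.exists_of_card_le_finset (by rw [Finset.card_compl]; simp; omega) |>.imp
        fun e h i => h ⟨i, rfl⟩
    have k : ∀ i, τ (f i) = f i := fun i => by simpa using hf i
    obtain ⟨e, he⟩ := emb ![a, τ a, f 0, f 1, f 2, f 3] (by
      simp [ha.symm, fun i => (mf ha (k i)).1, fun i => (mf ha (k i)).2])
    refine ⟨e, swap 0 1, fun i => ?_, swap 2 3 * swap 4 5, swap 2 3 * swap 3 4, swap 2 5 * swap 3 4, by decide +kernel⟩
    rw [he, he]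
    fin_cases i <;> first | rfl | exact Recog.inv_apply2 ττ _ | exact k _
  obtain ⟨b, hb, h1⟩ := pick (τ := τ) [a, τ a] (by simp only [List.length_cons, List.length_nil]; omega)
  by_cases k : 4 < τ.support.card
  · obtain ⟨c, hc, h2⟩ := pick (τ := τ) [a, τ a, b, τ b] k
    obtain ⟨e, -, -, -, -, -, k⟩ := emb3 ττ ha hb hc h1 h2
    exact ⟨e, _, k, swap 0 1 * swap 2 3, swap 0 2 * swap 2 4 * swap 1 3 * swap 3 5, swap 2 3 * swap 4 5, by decide +kernel⟩
  · exact (o (mem_alternatingGroup.2 (by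
      rw [dbl_eq ττ ha hb h1 (by omega)]; simp [sign_swap ha.symm, sign_swap hb.symm]))).elim

end CF.TZ.Big
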